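import Cfsg.Agent.H614.AltBlk
import Cfsg.Agent.H592.Defect

/-!
# S4578, task C: the alternating groups, `p = 2` (helper837)
-/

set_option autoImplicit false
set_option linter.unusedSectionVars false

namespace Cfsg.Agent.H837.AltTwo

open Finset Cfsg Cfsg.Agent.Characters.Core Cfsg.Agent.H614

universe u

/-! ### The centre of the even part of a defect group -/

section Centre

variable {α : Type u} [Fintype α] [DecidableEq α] {z : Equiv.Perm α} {w : ℕ}

/-- a member of `supS z` which commutes with all products of two transpositions of `z` stabilizes the cycles -/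
theorem mem_cyc_of_commute (hz : z.cycleType = Multiset.replicate w 2) (hw : 3 ≤ w) {g : Equiv.Perm α}
    (hg : g ∈ supS z) (h : ∀ e ∈ cyc z, Equiv.Perm.sign e = 1 → g * e = e * g) : g ∈ cyc z := by
  refine ⟨hg.1, fun x => ?_⟩
  by_cases hx : z x = x
  · rw [hg.2 x hx]
  have hcx : z.cycleOf x ∈ z.cycleFactorsFinset :=
    Equiv.Perm.cycleOf_mem_cycleFactorsFinset_iff.mpr (Equiv.Perm.mem_support.mpr hx)
  -- two more cycles
  have hcard : z.cycleFactorsFinset.card = w := by
    rw [← Fintype.card_coe, card_cycleFactors hz]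
  obtain ⟨c₁, hc₁, h₁⟩ : ∃ c ∈ z.cycleFactorsFinset, c ≠ z.cycleOf x := by
    by_contra hcon
    push Not at hcon
    have h1 : z.cycleFactorsFinset ⊆ {z.cycleOf x} := fun c hc => Finset.mem_singleton.2 (hcon c hc)
    have h2 := Finset.card_le_card h1
    rw [Finset.card_singleton] at h2
    omega
  obtain ⟨c₂, hc₂, h₂, h₁₂⟩ : ∃ c ∈ z.cycleFactorsFinset, c ≠ z.cycleOf x ∧ c ≠ c₁ := by
    by_contra hcon
    push Not at hcon
    have h1 : z.cycleFactorsFinset ⊆ {z.cycleOf x, c₁} := by
      intro c hc
      rw [Finset.mem_insert, Finset.mem_singleton]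
      by_cases h3 : c = z.cycleOf x
      · exact Or.inl h3
      · exact Or.inr (hcon c hc h3)
    have h2 := (Finset.card_le_card h1).trans Finset.card_le_two
    omega
  -- `g` stabilizes the supports of the products
  have key : ∀ c ∈ z.cycleFactorsFinset, c ≠ z.cycleOf x → z.SameCycle x (g x) ∨ c (g x) ≠ g x := by
    intro c hc hne
    have he : z.cycleOf x * c ∈ cyc z := (cyc z).mul_mem (cycle_mem_cyc hcx) (cycle_mem_cyc hc)
    have h1 := h _ he (by rw [map_mul, sign_cycle hz hcx, sign_cycle hz hc]; rfl)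
    have hcx' : c x = x := by
      by_contra h2
      exact hne (Equiv.Perm.cycle_is_cycleOf (f := z) (Equiv.Perm.mem_support.mpr h2) hc)
    by_contra hcon
    push Not at hcon
    obtain ⟨h3, h4⟩ := hcon
    have h5 : (z.cycleOf x * c) (g x) = g x := by
      rw [Equiv.Perm.mul_apply, h4]
      exact Equiv.Perm.cycleOf_apply_of_not_sameCycle h3
    rw [← Equiv.Perm.mul_apply, ← h1, Equiv.Perm.mul_apply] at h5
    have h6 := g.injective h5
    rw [Equiv.Perm.mul_apply, hcx', Equiv.Perm.cycleOf_apply_self] at h6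
    exact hx h6
  rcases key c₁ hc₁ h₁ with h3 | h3
  · exact h3
  rcases key c₂ hc₂ h₂ with h4 | h4
  · exact h4
  exfalso
  apply h₁₂
  rw [Equiv.Perm.cycle_is_cycleOf (f := z) (Equiv.Perm.mem_support.mpr h3) hc₁,
    Equiv.Perm.cycle_is_cycleOf (f := z) (Equiv.Perm.mem_support.mpr h4) hc₂]

/-- **The centre of the even part of a defect group of weight at least three.** -/
theorem card_center_le (hz : z.cycleType = Multiset.replicate w 2) (hw : 3 ≤ w) {P : Subgroup (Equiv.Perm α)}
    (h1 : cyc z ≤ P) (h2 : P ≤ supS z) (h3 : Nat.card P = 2 ^ (w + padicValNat 2 w.factorial)) :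
    ∃ j, j + 2 ≤ w ∧
      Nat.card (Subgroup.center ↥(P ⊓ alternatingGroup α : Subgroup (Equiv.Perm α))) = 2 ^ j := by
  have hp2 : Fact (Nat.Prime 2) := ⟨Nat.prime_two⟩
  obtain ⟨c₀, hc₀, hs₀⟩ := exists_odd_cyc hz (by omega)
  set D : Subgroup (Equiv.Perm α) := P ⊓ alternatingGroup α with hD
  set E : Subgroup (Equiv.Perm α) := cyc z ⊓ alternatingGroup α with hE
  have hED : E ≤ D := inf_le_inf_right _ h1
  have hEc : Nat.card (cyc z) = 2 * Nat.card E := card_inf_alternating hc₀ hs₀
  have hDc : Nat.card P = 2 * Nat.card D := card_inf_alternating (h1 hc₀) hs₀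
  have hEc' : Nat.card E = 2 ^ (w - 1) := by
    have h4 : 2 ^ w = 2 ^ (w - 1) * 2 := by
      rw [← pow_succ]
      congr 1
      omega
    rw [card_cyc hz, h4] at hEc
    omega
  -- the centre lies in `E`
  have hZ : (Subgroup.center D).map D.subtype ≤ E := by
    rintro _ ⟨⟨g, hg⟩, hgc, rfl⟩
    refine ⟨?_, hg.2⟩
    refine mem_cyc_of_commute hz hw (h2 hg.1) fun e he hes => ?_
    have h4 := Subgroup.mem_center_iff.1 hgc ⟨e, h1 he, Equiv.Perm.mem_alternatingGroup.mpr hes⟩
    exact (congrArg Subtype.val h4).symm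
  have hZc : Nat.card ((Subgroup.center D).map D.subtype) = Nat.card (Subgroup.center D) :=
    (Nat.card_congr (Subgroup.equivMapOfInjective _ _ (Subgroup.subtype_injective _)).toEquiv).symm
  have hd : Nat.card (Subgroup.center D) ∣ 2 ^ (w - 1) := by
    rw [← hZc, ← hEc']
    exact Subgroup.card_dvd_of_le hZ
  obtain ⟨j, hj, hjc⟩ := (Nat.dvd_prime_pow Nat.prime_two).1 hd
  refine ⟨j, ?_, hjc⟩
  by_contra hcon
  have hj' : j = w - 1 := by omega
  -- the centre is `E`
  have hZE : (Subgroup.center D).map D.subtype = E := by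
    apply Subgroup.eq_of_le_of_card_ge hZ
    rw [hZc, hjc, hj', hEc']
  have hDE : D ≤ E := by
    intro g hg
    refine ⟨?_, hg.2⟩
    refine mem_cyc_of_commute hz hw (h2 hg.1) fun e he hes => ?_
    have h4 : e ∈ (Subgroup.center D).map D.subtype := by
      rw [hZE]
      exact ⟨he, Equiv.Perm.mem_alternatingGroup.mpr hes⟩
    obtain ⟨⟨e', he'⟩, hc, rfl⟩ := h4
    have h5 := Subgroup.mem_center_iff.1 hc ⟨g, hg⟩
    exact congrArg Subtype.val h5
  have h4 := Subgroup.card_le_of_le hDE
  have h5 := one_le_val_factorial (p := 2) (w := w) (by omega)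
  rw [hEc'] at h4
  have h6 : 2 ^ (w + 1) ≤ Nat.card P := by
    rw [h3]
    exact Nat.pow_le_pow_right (by norm_num) (by omega)
  rw [hDc, show w + 1 = (w - 1) + 2 by omega, pow_add] at h6
  have h7 : 0 < 2 ^ (w - 1) := by positivity
  omega

end Centre

/-! ### Heights -/

section Main

/-- The valuation of the degree, upper bound. -/
theorem val_le {p : ℕ} [hp : Fact p.Prime] {n w m : ℕ} {β : Fin m → ℕ} (hβ : Function.Injective β)
    (hs : ∑ i, β i = n + ∑ i : Fin m, (i : ℕ)) (hw : ∑ j, β j / p = w + npairs p β) :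
    padicValNat p (Int.natAbs (FM (Multiset.replicate n 1) β)) + w ≤ padicValNat p n.factorial := by
  obtain ⟨ws, fs, h1, h2, h3⟩ := height_formula hβ hs hw
  have h4 : ∑ c ∈ range p, padicValNat p (fs c) ≤ ∑ c ∈ range p, padicValNat p (ws c).factorial :=
    Finset.sum_le_sum fun c _ => (padicValNat_dvd_iff_le (Nat.factorial_ne_zero _)).mp
      (pow_padicValNat_dvd.trans (h2 c))
  omega

variable {α : Type u} [Fintype α] [DecidableEq α] {M : Ideal AlgInt}

/-- the index of the centre -/
theorem index_center {D : Type*} [Group D] [Finite D] {d j : ℕ} (hd : Nat.card D = 2 ^ d)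
    (hj : Nat.card (Subgroup.center D) = 2 ^ j) : (Subgroup.center D).index.factorization 2 + j = d := by
  have h1 := (Subgroup.center D).card_mul_index
  have h2 := congrArg (fun n => n.factorization 2) h1
  rw [Nat.factorization_mul Nat.card_pos.ne' Subgroup.index_ne_zero_of_finite, Finsupp.add_apply, hj, hd,
    Nat.factorization_pow, Nat.factorization_pow] at h2
  simp only [Finsupp.smul_apply, Nat.Prime.factorization_self Nat.prime_two, smul_eq_mul, mul_one] at h2
  omega

/-- **S4578 for the alternating groups and the prime 2.** -/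
theorem alt_two_main [Nontrivial α] (hM : IsPModular 2 M) {B : Set (IrrCharacter (alternatingGroup α))}
    (hB : IsPBlock M B) {D : Subgroup (alternatingGroup α)} (hD : IsDefectGroup 2 M B D)
    {χ : IrrCharacter (alternatingGroup α)} (hχ : χ ∈ B) :
    blockHeight 2 B (χ : alternatingGroup α → ℂ) ≤ ((Subgroup.center D).index).factorization 2 ∧
      (blockHeight 2 B (χ : alternatingGroup α → ℂ) = ((Subgroup.center D).index).factorization 2 ↔
        IsMulCommutative D) := by
  classical
  have hp2 : Fact (Nat.Prime 2) := ⟨Nat.prime_two⟩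
  have hMp : M.IsPrime := hM.2.1.isPrime
  have hN2 : (alternatingGroup α).index = 2 := alternatingGroup.index_eq_two
  obtain ⟨BB, P, hBB, hP, hDP, hup, hdown⟩ := exists_cover hM (alternatingGroup α) hB hD
  obtain ⟨χ₀, hχ₀⟩ := Blocks.Basic.isPBlock_nonempty hBB
  obtain ⟨β, hβ, hs, hχβ⟩ := irr_eq (α := α) (m := Fintype.card α + 2 * 2) (by omega) χ₀.2
  obtain ⟨w, hw⟩ : ∃ w, ∑ j, β j / 2 = w + npairs 2 β :=
    ⟨_, (Nat.sub_add_cancel (npairs_le (by norm_num) hβ.injective)).symm⟩
  obtain ⟨z, hz, hz1, hz2, hPc⟩ := defect_structure hM (by omega) hBB hβ hs hχ₀ hχβ hw hP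
  have hcardN : Nat.card (Equiv.Perm α) = 2 * Nat.card (alternatingGroup α) := by
    rw [← Subgroup.card_mul_index (alternatingGroup α), hN2, mul_comm]
  let e : D ≃* (P ⊓ alternatingGroup α : Subgroup (Equiv.Perm α)) :=
    (MulEquiv.subgroupCongr hDP).trans (Subgroup.subgroupOfEquivOfLe inf_le_right)
  have hcardD : Nat.card D = Nat.card (P ⊓ alternatingGroup α : Subgroup (Equiv.Perm α)) :=
    Nat.card_congr e.toEquiv
  have hcardN' : (Nat.card (Equiv.Perm α)).factorization 2 =
      (Nat.card (alternatingGroup α)).factorization 2 + 1 := by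
    rw [hcardN, Nat.factorization_mul two_ne_zero Nat.card_pos.ne', Finsupp.add_apply,
      Nat.Prime.factorization_self Nat.prime_two, add_comm]
  by_cases hw3 : 3 ≤ w
  · obtain ⟨c, hc, hcs⟩ := exists_odd_cyc hz (by omega)
    have h1 := card_inf_alternating (hz1 hc) hcs
    have hDc : Nat.card D = 2 ^ (w + padicValNat 2 w.factorial - 1) := by
      rw [hcardD]
      obtain ⟨v, hv⟩ : ∃ v, w + padicValNat 2 w.factorial = v + 1 :=
        ⟨w + padicValNat 2 w.factorial - 1, by omega⟩
      rw [hPc, hv, pow_succ] at h1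
      rw [hv, Nat.add_sub_cancel]
      omega
    obtain ⟨j, hj, hjc⟩ := card_center_le hz hw3 hz1 hz2 hPc
    have hjD : Nat.card (Subgroup.center D) = 2 ^ j := by
      rw [← hjc]
      exact Nat.card_congr (Subgroup.centerCongr e).toEquiv
    have hidx := index_center hDc hjD
    have hv1 := one_le_val_factorial (p := 2) (w := w) (by omega)
    -- the degree
    obtain ⟨χ', hχ', hi⟩ := hup χ hχ
    have h2 : SameBlock M (ch α β) (χ' : Equiv.Perm α → ℂ) := by
      rw [← hχβ]; exact Blocks.Basic.isPBlock_sameBlock hBB hχ₀ hχ'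
    obtain ⟨γ, hγ, hsγ, hψγ, hcc⟩ := mem_blockOf hM (by omega) hβ hs h2
    have h3 := weight_of_sameCol (by norm_num) hcc (hs.trans hsγ.symm) hw
    have h4 := val_le hγ.injective hsγ h3
    have h5 : (charDegree (χ' : Equiv.Perm α → ℂ)).factorization 2 + w ≤
        (Nat.card (Equiv.Perm α)).factorization 2 := by
      rw [hψγ, charDegree_ch hγ hsγ, card_perm_fact, Nat.factorization_def _ Nat.prime_two]
      exact h4
    have h6 : (charDegree (χ : alternatingGroup α → ℂ)).factorization 2 ≤
        (charDegree (χ' : Equiv.Perm α → ℂ)).factorization 2 := by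
      have h7 : charDegree (χ : alternatingGroup α → ℂ) ∣ charDegree (χ' : Equiv.Perm α → ℂ) := by
        rcases degree_two (alternatingGroup α) hN2 χ'.2 χ.2 hi with h2 | ⟨h2, -⟩
        · rw [h2]
        · rw [h2]; exact dvd_mul_left _ _
      exact (Nat.factorization_le_iff_dvd (charDegree_pos χ.2).1.ne' (charDegree_pos χ'.2).1.ne').2 h7 2
    -- the height
    have h7 : (Nat.card (alternatingGroup α)).factorization 2 ≤
        (charDegree (χ : alternatingGroup α → ℂ)).factorization 2 + (w + padicValNat 2 w.factorial - 1) := by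
      have h8 := Cfsg.Agent.H592.Defect.le_degree_add 2 hM hB hD hχ
      rw [hDc, Nat.factorization_pow] at h8
      simp only [Finsupp.smul_apply, Nat.Prime.factorization_self Nat.prime_two, smul_eq_mul, mul_one] at h8
      omega
    obtain ⟨k, hk⟩ := Nat.exists_eq_add_of_le h7
    have h8 : blockHeight 2 B (χ : alternatingGroup α → ℂ) = k := height_eq hM hB hD hDc hχ hk
    rw [h8]
    have h9 : k < ((Subgroup.center D).index).factorization 2 := by omega
    refine ⟨h9.le, ⟨fun h => absurd h h9.ne, fun h => ?_⟩⟩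
    exfalso
    have h10 : Subgroup.center D = ⊤ := by
      rw [Subgroup.eq_top_iff']
      intro x
      exact Subgroup.mem_center_iff.2 fun y => h.is_comm.comm y x
    rw [h10, Subgroup.index_top] at h9
    simp at h9
  · have hd : ∃ d, d ≤ 2 ∧ Nat.card D = 2 ^ d := by
      rcases Nat.eq_zero_or_pos w with rfl | hw0
      · refine ⟨0, by omega, ?_⟩
        rw [hcardD]
        have h1 : Nat.card P = 1 := by rw [hPc]; simp
        have h2 := Subgroup.card_dvd_of_le
          (inf_le_left : (P ⊓ alternatingGroup α : Subgroup (Equiv.Perm α)) ≤ P)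
        rw [h1, Nat.dvd_one] at h2
        rw [h2, pow_zero]
      · obtain ⟨c, hc, hcs⟩ := exists_odd_cyc hz hw0
        have h1 := card_inf_alternating (hz1 hc) hcs
        have h2 : padicValNat 2 w.factorial ≤ 1 := by
          have h3 : w = 1 ∨ w = 2 := by omega
          rcases h3 with rfl | rfl
          · simp
          · rw [Nat.factorial_two, padicValNat_self]
        obtain ⟨v, hv⟩ : ∃ v, w + padicValNat 2 w.factorial = v + 1 :=
          ⟨w + padicValNat 2 w.factorial - 1, by omega⟩
        refine ⟨v, by omega, ?_⟩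
        rw [hPc, hv, pow_succ] at h1
        rw [hcardD]
        omega
    obtain ⟨d, hd2, hd⟩ := hd
    have hcomm := isMulCommutative_of_card hd hd2
    have h10 : Subgroup.center D = ⊤ := by
      rw [Subgroup.eq_top_iff']
      intro x
      exact Subgroup.mem_center_iff.2 fun y => hcomm.is_comm.comm y x
    have h0 := height_zero_of_card hM hB hD hd hd2 hχ
    rw [h0, h10, Subgroup.index_top, Nat.factorization_one]
    exact ⟨le_refl _, ⟨fun _ => hcomm, fun _ => rfl⟩⟩

/-- **S4578 for the alternating groups and the prime 2**, in the form of the plan (`Concl 2 (alternatingGroup (Fin n))`). -/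
theorem alt_two {n : ℕ} (hn : 5 ≤ n) (M : Ideal AlgInt) (hM : IsPModular 2 M)
    (B : Set (IrrCharacter (alternatingGroup (Fin n)))) (hB : IsPBlock M B)
    (D : Subgroup (alternatingGroup (Fin n))) (hD : IsDefectGroup 2 M B D)
    (χ : IrrCharacter (alternatingGroup (Fin n))) (hχ : χ ∈ B) :
    blockHeight 2 B (χ : alternatingGroup (Fin n) → ℂ) ≤ ((Subgroup.center D).index).factorization 2 ∧
      (blockHeight 2 B (χ : alternatingGroup (Fin n) → ℂ) = ((Subgroup.center D).index).factorization 2 ↔
        IsMulCommutative D) := by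
  have : Nontrivial (Fin n) := Fin.nontrivial_iff_two_le.2 (by omega)
  exact alt_two_main hM hB hD hχ

end Main

end Cfsg.Agent.H837.AltTwo
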